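import Cfsg.Agent.FGS2.AbelianLiftEven
import Cfsg.Agent.FGS2.FittingHeight
import Cfsg.Agent.FGS3.TwoSizesNormal

/-!
A solvable group with conjugate abelian subgroups of equal order, acting faithfully on an
elementary abelian group with one orbit on lines: no elementary subgroup of rank two, and no
quaternion subgroup leaving a proper subgroup invariant in the transitive case.
-/

set_option autoImplicit false
set_option linter.style.haveILetI false

namespace Cfsg.Agent.AbConjAll

open Subgroup Cfsg.Agent.FGS2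
open scoped commutatorElement

universe u v

/-- An element of prime order generates any cyclic group around it of that order. -/
theorem mem_zpowers_pow_of_prime {H : Type*} [Group H] {q : ℕ} [Fact q.Prime] {u : H}
    (hu : u ^ q = 1) {i : ℤ} (hi : u ^ i ≠ 1) : u ∈ zpowers (u ^ i) := by
  have hu1 : u ≠ 1 := fun h => hi (by rw [h, one_zpow])
  have ho : orderOf u = q := orderOf_eq_prime hu hu1
  have hoi : orderOf (u ^ i) = q := orderOf_eq_prime (by
    rw [← zpow_natCast, zpow_comm, zpow_natCast, hu, one_zpow]) hi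
  haveI : Finite (zpowers u) := Nat.finite_of_card_ne_zero
    (by rw [Nat.card_zpowers, ho]; exact (Fact.out : q.Prime).ne_zero)
  rw [Subgroup.eq_of_le_of_card_ge (zpowers_le.mpr (zpow_mem (mem_zpowers u) i) :
    zpowers (u ^ i) ≤ zpowers u) (by rw [Nat.card_zpowers, Nat.card_zpowers, ho, hoi])]
  exact mem_zpowers u

variable {X : Type u} [Group X] [Finite X]

theorem absorb (hB : AbConj X) (N : Subgroup X) [N.Normal] {a m : X} (hm : m ∈ N)
    (h : orderOf m = orderOf a) : a ∈ N :=
  (Cfsg.Agent.S3909.result hB N).1 a ⟨m, hm, h⟩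

/-- Two commuting independent elements of prime order: no cyclic group contains both. -/
theorem not_both_cyclic {H : Type*} [Group H] [Finite H] [IsCyclic H] {r : ℕ} [Fact r.Prime]
    {a b : H} (ha : a ^ r = 1) (hb : b ^ r = 1) (ha1 : a ≠ 1) : b ∈ zpowers a := by
  by_cases hb1 : b = 1
  · exact hb1 ▸ one_mem _
  rw [subgroup_eq_of_card_eq (H := zpowers a) (K := zpowers b)
    (by rw [Nat.card_zpowers, Nat.card_zpowers, orderOf_eq_prime ha ha1, orderOf_eq_prime hb hb1])]
  exact mem_zpowers b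

section Action

variable {M : Type v} [CommGroup M] [Finite M] {p : ℕ} [hp : Fact p.Prime] {ρ : X →* MulAut M}

/-- Normal elementary abelian subgroups are cyclic. -/
theorem mem_zpowers_of_normal (hρ : Function.Injective ρ) (hMp : ∀ m : M, m ^ p = 1)
    (hM1 : ∃ m : M, m ≠ 1)
    (hline : ∀ u v : M, u ≠ 1 → v ≠ 1 → ∃ x, zpowers (ρ x u) = zpowers v)
    (W : Subgroup X) [W.Normal] {q : ℕ} [Fact q.Prime] (hWc : IsMulCommutative W)
    (hWq : ∀ w ∈ W, w ^ q = 1) {a b : X} (ha : a ∈ W) (hb : b ∈ W) (ha1 : a ≠ 1) :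
    b ∈ zpowers a := by
  classical
  by_contra hnb
  let st : M → Subgroup X := fun v => W ⊓ (MulAction.stabilizer (MulAut M) v).comap ρ
  have hst : ∀ v x, x ∈ st v ↔ x ∈ W ∧ ρ x v = v := fun v x => Iff.rfl
  -- some non-trivial element fixes some non-trivial vector
  obtain ⟨w₀, hw₀, hw₀1, v₀, hv₀, hfix₀⟩ : ∃ w ∈ W, w ≠ 1 ∧ ∃ v : M, v ≠ 1 ∧ ρ w v = v := by
    obtain ⟨m₀, hm₀⟩ := hM1
    letI : CommGroup W := { (inferInstance : Group W) with mul_comm := hWc.is_comm.comm }
    letI : MulDistribMulAction W M := MulDistribMulAction.compHom M (ρ.comp W.subtype)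
    by_contra hno
    push Not at hno
    by_cases hqp : q = p
    · subst hqp
      have hWg : IsPGroup q W := fun w => ⟨1, Subtype.ext (by rw [pow_one]; exact hWq w w.2)⟩
      have hMg : IsPGroup q M := fun m => ⟨1, by rw [pow_one]; exact hMp m⟩
      haveI : Nontrivial M := ⟨⟨m₀, 1, hm₀⟩⟩
      obtain ⟨k, hk0, hk⟩ := hMg.nontrivial_iff_card.mp inferInstance
      obtain ⟨v, hv, hv1⟩ := hWg.exists_fixed_point_of_prime_dvd_card_of_fixed_point M
        (hk ▸ dvd_pow_self q hk0.ne') (a := 1) (fun w => smul_one w)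
      exact hno a ha ha1 v (Ne.symm hv1) (hv (⟨a, ha⟩ : W))
    · have h := FGS3.TwoSizesNormal.pow_mem_of_rank_two (⊥ : Subgroup M) (r := q)
        (fun w : W => Subtype.ext (hWq w w.2))
        (fun w hw t ht => Subgroup.mem_bot.mpr (by
          by_contra ht1
          exact hno w w.2 (fun e => hw (Subtype.ext e)) t ht1 ht))
        (g := (⟨a, ha⟩ : W)) (h := ⟨b, hb⟩) (fun e => ha1 (congrArg Subtype.val e))
        (fun hm => hnb (by
          obtain ⟨i, hi⟩ := mem_zpowers_iff.mp hm
          exact mem_zpowers_iff.mpr ⟨i, congrArg Subtype.val hi⟩)) m₀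
      apply hm₀
      have hcop : Nat.Coprime q p := (Nat.coprime_primes Fact.out hp.out).mpr hqp
      have := pow_gcd_eq_one.mpr ⟨Subgroup.mem_bot.mp h, hMp m₀⟩
      rwa [hcop.gcd_eq_one, pow_one] at this
  -- all stabilisers have the same order
  have hle : ∀ u v : M, u ≠ 1 → v ≠ 1 → Nat.card (st u) ≤ Nat.card (st v) := by
    intro u v hu hv
    obtain ⟨x, hx⟩ := hline u v hu hv
    rw [← Subgroup.card_map_of_injective (K := st u) (f := (MulAut.conj x).toMonoidHom)
      (MulAut.conj x).injective]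
    refine Subgroup.card_le_of_le ?_
    rintro _ ⟨w, hw, rfl⟩
    obtain ⟨hwW, hwu⟩ := (hst u w).mp hw
    refine (hst v _).mpr ⟨(inferInstance : W.Normal).conj_mem w hwW x, ?_⟩
    obtain ⟨i, hi⟩ := mem_zpowers_iff.mp (hx ▸ mem_zpowers v : v ∈ zpowers (ρ x u))
    show ρ (x * w * x⁻¹) v = v
    rw [← hi, map_zpow]
    congr 1
    rw [map_mul, map_mul, map_inv]
    show ρ x (ρ w ((ρ x)⁻¹ (ρ x u))) = ρ x u
    rw [MulAut.inv_apply_self, hwu]
  have hv₀mem : w₀ ∈ st v₀ := (hst v₀ w₀).mpr ⟨hw₀, hfix₀⟩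
  obtain ⟨w₁, hw₁⟩ : ∃ m : M, ρ w₀ m ≠ m := by
    by_contra! hall
    exact hw₀1 (hρ (MulEquiv.ext fun m => by rw [hall m, map_one]; rfl))
  have hnotall : ¬ ∀ w ∈ st v₀, ρ w w₁ = w₁ := fun h => hw₁ (h w₀ hv₀mem)
  have hw₁1 : w₁ ≠ 1 := fun h => hw₁ (by rw [h, map_one])
  have hdiff : ∀ c : M, c ≠ 1 → st v₀ ≤ st c → st v₀ = st c := fun c hc hle' =>
    Subgroup.eq_of_le_of_card_ge hle' (hle c v₀ hc hv₀)
  set z := v₀ * w₁ with hz
  have hz1 : z ≠ 1 := fun h => by
    refine hw₁ ?_
    rw [eq_inv_of_mul_eq_one_right h, map_inv, hfix₀]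
  have hcomm : ∀ x ∈ W, ∀ w ∈ W, ∀ m : M, ρ w m = m → ρ w (ρ x m) = ρ x m := by
    intro x hx w hw m hm
    have h1 : w * x = x * w := congrArg Subtype.val (hWc.is_comm.comm (⟨w, hw⟩ : W) ⟨x, hx⟩)
    rw [← MulAut.mul_apply, ← map_mul, h1, map_mul, MulAut.mul_apply, hm]
  -- the stabiliser of the product
  have hsub : st z ≤ st v₀ ∧ st z ≤ st w₁ := by
    refine forall₂_and.mp fun x hx => ?_
    obtain ⟨hxW, hxz⟩ := (hst z x).mp hx
    have hc : ρ x v₀ * v₀⁻¹ = w₁ * (ρ x w₁)⁻¹ := by
      have h1 : ρ x v₀ * ρ x w₁ = v₀ * w₁ := by rw [← map_mul]; exact hxz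
      rw [eq_mul_inv_iff_mul_eq, mul_assoc, mul_comm (v₀⁻¹), ← mul_assoc, h1]
      simp
    by_cases hc1 : ρ x v₀ * v₀⁻¹ = 1
    · exact ⟨(hst v₀ x).mpr ⟨hxW, mul_inv_eq_one.mp hc1⟩,
        (hst w₁ x).mpr ⟨hxW, (mul_inv_eq_one.mp (hc.symm.trans hc1)).symm⟩⟩
    · exfalso
      have e1 : st v₀ = st (ρ x v₀ * v₀⁻¹) := hdiff _ hc1 fun w hw => by
        obtain ⟨hwW, hwv⟩ := (hst v₀ w).mp hw
        exact (hst _ w).mpr ⟨hwW, by rw [map_mul, map_inv, hcomm x hxW w hwW _ hwv, hwv]⟩
      have e2 : st w₁ = st (ρ x v₀ * v₀⁻¹) := by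
        refine Subgroup.eq_of_le_of_card_ge (fun w hw => ?_) (hle _ w₁ hc1 hw₁1)
        obtain ⟨hwW, hwv⟩ := (hst w₁ w).mp hw
        exact (hst _ w).mpr ⟨hwW, by rw [hc, map_mul, map_inv, hcomm x hxW w hwW _ hwv, hwv]⟩
      exact hnotall fun w hw => ((hst w₁ w).mp ((e1.trans e2.symm) ▸ hw)).2
  have e1 : st z = st v₀ := Subgroup.eq_of_le_of_card_ge hsub.1 (hle v₀ z hv₀ hz1)
  have e2 : st z = st w₁ := Subgroup.eq_of_le_of_card_ge hsub.2 (hle w₁ z hw₁1 hz1)
  exact hnotall fun w hw => ((hst w₁ w).mp ((e1.symm.trans e2) ▸ hw)).2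

variable [Group.IsSolvable X] (hB : AbConj X) (hρ : Function.Injective ρ)
  (hMp : ∀ m : M, m ^ p = 1) (hM1 : ∃ m : M, m ≠ 1)
  (hline : ∀ u v : M, u ≠ 1 → v ≠ 1 → ∃ x, zpowers (ρ x u) = zpowers v)

include hB hρ hMp hM1 hline

/-- A prime with non-trivial core has a unique subgroup of that order. -/
theorem unique_of_core {q : ℕ} [Fact q.Prime] (hO : Cfsg.pCore q X ≠ ⊥) :
    OddLocal.UniqueOrderP q X := by
  intro a b ha hb ha1
  by_cases hb1 : b = 1
  · exact hb1 ▸ one_mem _
  set O := Cfsg.pCore q X with hOdef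
  set S : Set X := {x | (x ∈ O ∧ ∀ o ∈ O, Commute o x) ∧ x ^ q = 1}
  haveI hSc : IsMulCommutative (closure S) := Subgroup.isMulCommutative_closure
    fun x hx y hy => hy.1.2 x hx.1.1
  have hconj : ∀ g x, x ∈ S → g * x * g⁻¹ ∈ S := by
    rintro g x ⟨⟨hxO, hxc⟩, hxq⟩
    refine ⟨⟨(inferInstance : O.Normal).conj_mem x hxO g, fun o ho => ?_⟩,
      by rw [conj_pow, hxq, mul_one, mul_inv_cancel]⟩
    have h1 := hxc (g⁻¹ * o * g⁻¹⁻¹) ((inferInstance : O.Normal).conj_mem o ho g⁻¹)
    rw [inv_inv] at h1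
    show o * (g * x * g⁻¹) = g * x * g⁻¹ * o
    calc o * (g * x * g⁻¹) = g * (g⁻¹ * o * g * x) * g⁻¹ := by group
      _ = g * (x * (g⁻¹ * o * g)) * g⁻¹ := by rw [h1.eq]
      _ = g * x * g⁻¹ * o := by group
  haveI hSn : (closure S).Normal := ⟨fun x hx g => by
    have h2 : (closure S).map (MulAut.conj g).toMonoidHom ≤ closure S := by
      rw [MonoidHom.map_closure]
      exact closure_mono (by rintro _ ⟨y, hy, rfl⟩; exact hconj g y hy)
    exact h2 ⟨x, hx, rfl⟩⟩
  have hexp : ∀ x ∈ closure S, x ^ q = 1 := by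
    intro x hx
    induction hx using Subgroup.closure_induction with
    | mem x hx => exact hx.2
    | one => exact one_pow q
    | mul x y hx hy h1 h2 =>
      rw [(show Commute x y from congrArg Subtype.val (hSc.is_comm.comm ⟨x, hx⟩ ⟨y, hy⟩)).mul_pow,
        h1, h2, one_mul]
    | inv x _ h1 => rw [inv_pow, h1, inv_one]
  have hOp : IsPGroup q O := Core.isPGroup_pCore q X
  haveI : Nontrivial O := (Subgroup.nontrivial_iff_ne_bot O).mpr hO
  haveI := hOp.center_nontrivial
  obtain ⟨k, hk0, hk⟩ := (hOp.to_subgroup (center O)).nontrivial_iff_card.mp inferInstance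
  obtain ⟨z, hz⟩ := exists_prime_orderOf_dvd_card' q (hk ▸ dvd_pow_self q hk0.ne' : q ∣ Nat.card (center O))
  have hzo : orderOf ((z : O) : X) = q := by rw [Subgroup.orderOf_coe, Subgroup.orderOf_coe, hz]
  have hzS : ((z : O) : X) ∈ closure S := subset_closure
    ⟨⟨(z : O).2, fun o ho => congrArg Subtype.val (mem_center_iff.mp z.2 ⟨o, ho⟩)⟩, by
      rw [← hzo]; exact pow_orderOf_eq_one _⟩
  exact mem_zpowers_of_normal hρ hMp hM1 hline (closure S) hSc hexp
    (absorb hB _ hzS (hzo.trans (orderOf_eq_prime ha ha1).symm))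
    (absorb hB _ hzS (hzo.trans (orderOf_eq_prime hb hb1).symm)) ha1

/-- A non-cyclic core is of order 8 and quaternion. -/
theorem core_cyclic_or_eight {q : ℕ} [Fact q.Prime] :
    IsCyclic (Cfsg.pCore q X) ∨
      (q = 2 ∧ Nonempty (Cfsg.pCore q X ≃* QuaternionGroup (2 ^ 1))) := by
  by_cases hO : Cfsg.pCore q X = ⊥
  · left; rw [hO]; infer_instance
  have hu := unique_of_core hB hρ hMp hM1 hline hO
  rcases OddLocal.isCyclic_or_quaternion (Core.isPGroup_pCore q X) (hu.subgroup _) with
    hc | ⟨hq, k, ⟨e⟩⟩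
  · exact Or.inl hc
  subst hq
  by_cases hcyc : IsCyclic (Cfsg.pCore 2 X)
  · exact Or.inl hcyc
  obtain ⟨P⟩ : Nonempty (Sylow 2 X) := inferInstance
  have hle := Core.pCore_le_sylow P
  have hP8 := card_sylow_eq_eight hB P (hu.subgroup _) fun hc => by
    haveI := hc
    exact hcyc (isCyclic_of_injective (Subgroup.inclusion hle) (Subgroup.inclusion_injective hle))
  have hcard := Subgroup.card_le_of_le hle
  rw [hP8, Nat.card_congr e.toEquiv, Nat.card_eq_fintype_card, QuaternionGroup.card] at hcard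
  have hk1 : k ≤ 1 := by
    by_contra hk
    have := Nat.pow_le_pow_right (show 0 < 2 by norm_num) (show 2 ≤ k by omega)
    omega
  interval_cases k
  · exfalso
    apply hcyc
    refine isCyclic_of_orderOf_eq_card (e.symm (QuaternionGroup.xa 0)) ?_
    rw [MulEquiv.orderOf_eq, QuaternionGroup.orderOf_xa, Nat.card_congr e.toEquiv,
      Nat.card_eq_fintype_card, QuaternionGroup.card]
    norm_num
  · exact Or.inr ⟨rfl, ⟨e⟩⟩

omit hB hρ hMp hM1 hline in
/-- The automorphisms of a cyclic group commute. -/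
theorem mulAut_comm {O : Type*} [Group O] [IsCyclic O] (f g : MulAut O) : f * g = g * f :=
  (IsCyclic.mulAutMulEquiv O).injective.eq_iff.mp (by
    rw [map_mul, map_mul, mul_comm]) 

/-- No elementary abelian subgroup of rank two. -/
theorem no_rank_two {r : ℕ} [Fact r.Prime] {a b : X} (ha : a ^ r = 1) (hb : b ^ r = 1)
    (hab : Commute a b) (ha1 : a ≠ 1) (hnb : b ∉ zpowers a) : False := by
  classical
  have hr : Cfsg.pCore r X = ⊥ := by
    by_contra hO
    exact hnb (unique_of_core hB hρ hMp hM1 hline hO a b ha hb ha1)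
  set R := closure ({a, b} : Set X) with hR
  haveI hRc : IsMulCommutative R := Subgroup.isMulCommutative_closure (by
    rintro x (rfl | rfl) y (rfl | rfl)
    · rfl
    · exact hab.eq
    · exact hab.eq.symm
    · rfl)
  have hexp : ∀ x ∈ R, x ^ r = 1 := by
    intro x hx
    induction hx using Subgroup.closure_induction with
    | mem x hx => rcases hx with rfl | rfl <;> assumption
    | one => exact one_pow r
    | mul x y hx hy h1 h2 =>
      rw [(show Commute x y from congrArg Subtype.val (hRc.is_comm.comm ⟨x, hx⟩ ⟨y, hy⟩)).mul_pow,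
        h1, h2, one_mul]
    | inv x _ h1 => rw [inv_pow, h1, inv_one]
  have haR : a ∈ R := subset_closure (by simp)
  have hbR : b ∈ R := subset_closure (by simp)
  have hcen : ∀ q : ℕ, q.Prime → R ≤ centralizer (Cfsg.pCore q X : Set X) := by
    intro q hq
    haveI := Fact.mk hq
    by_cases hO : Cfsg.pCore q X = ⊥
    · intro x _ o ho
      rw [hO] at ho
      rw [Subgroup.mem_bot.mp ho, one_mul, mul_one]
    have hrq : r ≠ q := fun e => hO (e ▸ hr)
    set φ : R →* MulAut (Cfsg.pCore q X) := (MulAut.conjNormal).comp R.subtype with hφ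
    have hker : ∀ w : R, φ w = 1 → (w : X) ∈ centralizer (Cfsg.pCore q X : Set X) := by
      intro w hw o ho
      have := congrArg Subtype.val (DFunLike.congr_fun hw (⟨o, ho⟩ : Cfsg.pCore q X))
      exact (mul_inv_eq_iff_eq_mul.mp (this : (w : X) * o * (w : X)⁻¹ = o)).symm
    by_cases hinj : Function.Injective φ
    swap
    · obtain ⟨w, hw, hw1⟩ : ∃ w : R, φ w = 1 ∧ w ≠ 1 := by
        by_contra! hall
        exact hinj ((injective_iff_map_eq_one φ).mpr hall)
      have hw1' : (w : X) ≠ 1 := fun e => hw1 (Subtype.ext e)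
      intro x hx
      by_cases hx1 : x = 1
      · exact hx1 ▸ one_mem _
      exact absorb hB _ (hker w hw) ((orderOf_eq_prime (hexp w w.2) hw1').trans
        (orderOf_eq_prime (hexp x hx) hx1).symm)
    exfalso
    rcases core_cyclic_or_eight hB hρ hMp hM1 hline (q := q) with hc | ⟨rfl, ⟨e⟩⟩
    · haveI := hc
      obtain ⟨k, hk⟩ := IsPGroup.iff_card.mp (Core.isPGroup_pCore q X)
      set ψ : R →* (ZMod (Nat.card (Cfsg.pCore q X)))ˣ :=
        (IsCyclic.mulAutMulEquiv _).toMonoidHom.comp φ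
      have hψ : Function.Injective ψ := (IsCyclic.mulAutMulEquiv _).injective.comp hinj
      by_cases hq2 : q = 2
      · subst hq2
        have h2 : ψ ⟨a, haR⟩ = 1 := by
          rw [← orderOf_eq_one_iff]
          refine Nat.eq_one_of_dvd_coprimes (a := r) (b := 2 ^ k) ?_ ?_ ?_
          · exact ((Nat.coprime_primes (Fact.out : r.Prime) Nat.prime_two).mpr hrq).pow_right _
          · exact orderOf_dvd_of_pow_eq_one (by
              rw [← map_pow, show (⟨a, haR⟩ : R) ^ r = 1 from Subtype.ext ha, map_one])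
          · refine _root_.orderOf_dvd_natCard _ |>.trans ?_
            rw [Nat.card_eq_fintype_card, ZMod.card_units_eq_totient, hk]
            rcases Nat.eq_zero_or_pos k with rfl | hk0
            · simp
            · rw [Nat.totient_prime_pow Nat.prime_two hk0]
              exact (mul_one (2 ^ (k - 1))).dvd.trans (pow_dvd_pow 2 (Nat.sub_le k 1))
        exact ha1 (congrArg Subtype.val (hψ (h2.trans (map_one ψ).symm)))
      · haveI : IsCyclic (ZMod (Nat.card (Cfsg.pCore q X)))ˣ := by
          rw [hk]; exact ZMod.isCyclic_units_of_prime_pow q hq hq2 k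
        haveI : IsCyclic R := isCyclic_of_injective ψ hψ
        have h := not_both_cyclic (a := (⟨a, haR⟩ : R)) (b := ⟨b, hbR⟩)
          (Subtype.ext ha) (Subtype.ext hb) (fun e => ha1 (congrArg Subtype.val e))
        obtain ⟨i, hi⟩ := mem_zpowers_iff.mp h
        exact hnb (mem_zpowers_iff.mpr ⟨i, congrArg Subtype.val hi⟩)
    · -- free action on the generating pairs of the quaternion group
      let Q := QuaternionGroup (2 ^ 1)
      let P := {uv : Q × Q // uv.1 * uv.1 ≠ 1 ∧ uv.2 * uv.2 ≠ 1 ∧ uv.2 ≠ uv.1 ∧ uv.2 ≠ uv.1⁻¹}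
      have hP : Fintype.card P = 24 := by decide +kernel
      let θ : R →* MulAut Q := ((MulAut.congr e).toMonoidHom).comp φ
      have hθ : Function.Injective θ := (MulAut.congr e).injective.comp hinj
      letI : MulAction R P :=
        { smul := fun w uv => ⟨(θ w uv.1.1, θ w uv.1.2), by
            obtain ⟨h1, h2, h3, h4⟩ := uv.2
            refine ⟨?_, ?_, ?_, ?_⟩ <;>
              simp only [← map_mul, ← map_inv, ne_eq, EmbeddingLike.map_eq_one_iff,
                EmbeddingLike.apply_eq_iff_eq] <;> assumption⟩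
          one_smul := fun uv => Subtype.ext (Prod.ext
            (by show θ 1 uv.1.1 = _; rw [map_one]; rfl)
            (by show θ 1 uv.1.2 = _; rw [map_one]; rfl))
          mul_smul := fun w w' uv => Subtype.ext (Prod.ext
            (by show θ (w * w') uv.1.1 = _; rw [map_mul]; rfl)
            (by show θ (w * w') uv.1.2 = _; rw [map_mul]; rfl)) }
      have hgen : ∀ uv : P, ∀ x : Q, ∃ i j : Fin 4, x = uv.1.1 ^ (i : ℕ) * uv.1.2 ^ (j : ℕ) := by
        decide +kernel
      have hfree : ∀ uv : P, MulAction.stabilizer R uv = ⊥ := by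
        intro uv
        rw [Subgroup.eq_bot_iff_forall]
        intro w hw
        have h : (θ w uv.1.1, θ w uv.1.2) = uv.1 := congrArg Subtype.val hw
        refine hθ (MulEquiv.ext fun x => ?_)
        obtain ⟨i, j, rfl⟩ := hgen uv x
        obtain ⟨h1, h2⟩ := Prod.ext_iff.mp h
        simp only at h1 h2
        rw [map_mul, map_pow, map_pow, map_one, h1, h2]
        rfl
      have hdvd : Nat.card R ∣ 24 := by
        rw [← hP, ← Nat.card_eq_fintype_card,
          Nat.card_congr (MulAction.selfEquivSigmaOrbits R P), Nat.card_sigma]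
        refine Finset.dvd_sum fun o _ => ?_
        rw [Nat.card_congr (MulAction.orbitEquivQuotientStabilizer R o.out), hfree,
          ← Subgroup.index_eq_card, Subgroup.index_bot]
      obtain ⟨k, hk⟩ := IsPGroup.iff_card.mp (show IsPGroup r R from fun w =>
        ⟨1, Subtype.ext (by rw [pow_one]; exact hexp w w.2)⟩)
      have hk2 : 2 ≤ k := by
        by_contra hlt
        apply hnb
        have hle : zpowers a ≤ R := zpowers_le.mpr haR
        rw [Subgroup.eq_of_le_of_card_ge hle (by
          rw [hk, Nat.card_zpowers, orderOf_eq_prime ha ha1]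
          exact (Nat.pow_le_pow_right (Fact.out : r.Prime).pos (show k ≤ 1 by omega)).trans
            (pow_one r).le)]
        exact hbR
      have hd : r ^ 2 ∣ 24 := (pow_dvd_pow r hk2).trans (hk ▸ hdvd)
      have hle := Nat.le_of_dvd (by norm_num) hd
      have hr5 : r < 5 := by
        by_contra h5
        have := Nat.pow_le_pow_left (show 5 ≤ r by omega) 2
        omega
      have hr2 := (Fact.out : r.Prime).two_le
      interval_cases r
      · exact hrq rfl
      · norm_num at hd
      · exact absurd (Fact.out : Nat.Prime 4) (by norm_num)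
  have haF : a ∈ Cfsg.fittingSubgroup X := by
    refine Core.centralizer_fittingSubgroup_le ?_
    intro f hf
    rw [Core.fittingSubgroup_eq_iSup] at hf
    have hle : (⨆ q : {q : ℕ // q.Prime}, Cfsg.pCore q X) ≤ centralizer ({a} : Set X) :=
      iSup_le fun q o ho => mem_centralizer_singleton_iff.mpr (hcen q.1 q.2 haR o ho)
    exact mem_centralizer_singleton_iff.mp (hle hf)
  have := mem_pCore_of_mem_fitting haF (q := r) (IsPGroup.of_card (n := 1)
    (by rw [Nat.card_zpowers, orderOf_eq_prime ha ha1, pow_one]))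
  rw [hr, Subgroup.mem_bot] at this
  exact ha1 this

/-- A quaternion subgroup leaves no proper non-trivial subgroup invariant when the subgroups of
that order form one orbit. -/
theorem no_quaternion (T : Subgroup X) (e : T ≃* QuaternionGroup (2 ^ 1)) (C : Subgroup M)
    (hC0 : C ≠ ⊥) (hC1 : C ≠ ⊤) (hTC : ∀ t ∈ T, ∀ c ∈ C, ρ t c ∈ C)
    (hsub : ∀ D : Subgroup M, Nat.card D = Nat.card C → ∃ x, C.map (ρ x).toMonoidHom = D) :
    False := by
  classical
  set O := Cfsg.pCore 2 X with hO
  have hT4 : ∀ q, orderOf ((e.symm q : T) : X) = orderOf q := fun q => by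
    rw [Subgroup.orderOf_coe, MulEquiv.orderOf_eq]
  by_cases hex : ∃ o ∈ O, orderOf o = 4
  · obtain ⟨o, hoO, ho4⟩ := hex
    have hTO : T ≤ O := by
      intro t ht
      have h := quaternion_le_of_order_four (O.comap (T.subtype.comp e.symm.toMonoidHom))
        fun q hq => absorb hB O hoO (by
          show orderOf o = orderOf ((e.symm q : T) : X)
          rw [hT4, hq, ho4])
      have h2 : e ⟨t, ht⟩ ∈ O.comap (T.subtype.comp e.symm.toMonoidHom) := h ▸ Subgroup.mem_top _
      simpa using h2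
    have hOT : O = T := by
      refine (Subgroup.eq_of_le_of_card_ge hTO ?_).symm
      rcases core_cyclic_or_eight hB hρ hMp hM1 hline (q := 2) with hc | ⟨-, ⟨e'⟩⟩
      · exfalso
        haveI := hc
        haveI : IsCyclic T := isCyclic_of_injective (Subgroup.inclusion hTO)
          (Subgroup.inclusion_injective hTO)
        have h1 : ∀ a b : T, a * b = b * a := fun a b => IsCyclic.commGroup.mul_comm a b
        have h2 : (QuaternionGroup.xa 0 : QuaternionGroup (2 ^ 1)) * QuaternionGroup.a 1 =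
            QuaternionGroup.a 1 * QuaternionGroup.xa 0 := by
          apply e.symm.injective
          rw [map_mul, map_mul, h1]
        exact absurd h2 (by decide +kernel)
      · rw [Nat.card_congr e.toEquiv, Nat.card_congr e'.toEquiv]
    have hTn : T.Normal := hOT ▸ inferInstance
    have hinv : ∀ t ∈ T, ∀ D : Subgroup M, Nat.card D = Nat.card C → ∀ d ∈ D, ρ t d ∈ D := by
      intro t ht D hD
      obtain ⟨x, rfl⟩ := hsub D hD
      rintro _ ⟨c, hc, rfl⟩
      have hmem : ρ (x⁻¹ * t * x⁻¹⁻¹) c ∈ C := hTC _ (hTn.conj_mem t ht x⁻¹) c hc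
      refine ⟨_, hmem, ?_⟩
      show ρ x (ρ (x⁻¹ * t * x⁻¹⁻¹) c) = ρ t (ρ x c)
      rw [← MulAut.mul_apply, ← MulAut.mul_apply, ← map_mul, ← map_mul]
      congr 2
      group
    have hMg : IsPGroup p M := fun m => ⟨1, by rw [pow_one]; exact hMp m⟩
    obtain ⟨k, hk⟩ := IsPGroup.iff_card.mp (hMg.to_subgroup C)
    obtain ⟨n, hn⟩ := IsPGroup.iff_card.mp hMg
    have hk1 : 1 ≤ k := by
      by_contra h
      exact hC0 (Subgroup.card_eq_one.mp (by rw [hk, show k = 0 by omega, pow_zero]))
    have hkn : k < n := by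
      by_contra h
      refine hC1 (Subgroup.eq_top_of_card_eq C (le_antisymm (Subgroup.card_le_card_group C) ?_))
      rw [hk, hn]
      exact Nat.pow_le_pow_right hp.out.pos (by omega)
    have hscal : ∀ t ∈ T, ∀ v : M, ρ t v ∈ zpowers v := by
      intro t ht v
      by_contra hw
      set w := ρ t v with hwdef
      have hv1 : v ≠ 1 := fun h => hw (by rw [hwdef, h, map_one]; exact one_mem _)
      obtain ⟨S, ⟨hvS, hwS⟩, hmax⟩ := (Set.toFinite
        {S : Subgroup M | zpowers v ≤ S ∧ w ∉ S}).exists_maximal ⟨zpowers v, le_rfl, hw⟩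
      have htop : S ⊔ zpowers w = ⊤ := by
        rw [eq_top_iff]
        intro u _
        by_cases huS : u ∈ S
        · exact mem_sup_left huS
        have hwu : w ∈ S ⊔ zpowers u := by
          by_contra hno
          exact huS (hmax ⟨hvS.trans le_sup_left, hno⟩ le_sup_left
            (mem_sup_right (mem_zpowers u)))
        obtain ⟨s, hs, _, ⟨i, rfl⟩, hsi⟩ := Subgroup.mem_sup.mp hwu
        simp only at hsi
        have hne : u ^ i ≠ 1 := fun h => hwS (by rw [← hsi]; simpa [h] using hs)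
        refine zpowers_le.mpr ?_ (mem_zpowers_pow_of_prime (hMp u) hne)
        rw [eq_inv_mul_of_mul_eq hsi]
        exact mul_mem (inv_mem (mem_sup_left hs)) (mem_sup_right (mem_zpowers w))
      have hScard : Nat.card M = Nat.card S * p := by
        rw [← Subgroup.card_top (G := M), ← htop, Coprime.card_sup
          (fun x _ => by rw [Subgroup.mem_normalizer_iff]; intro h; rw [mul_comm x h, mul_inv_cancel_right])]
        · rw [Nat.card_zpowers, orderOf_eq_prime (hMp w) fun h => hwS (h ▸ one_mem S)]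
        · rw [Subgroup.eq_bot_iff_forall]
          rintro x ⟨hxS, ⟨i, rfl⟩⟩
          by_contra hx1
          exact hwS (zpowers_le.mpr hxS (mem_zpowers_pow_of_prime (hMp w) hx1))
      have hdvd : p ^ k ∣ Nat.card S := by
        obtain ⟨s, hs⟩ := IsPGroup.iff_card.mp (hMg.to_subgroup S)
        rw [hs]
        refine pow_dvd_pow p ?_
        rw [hn, hs, ← pow_succ] at hScard
        have := Nat.pow_right_injective hp.out.two_le hScard
        omega
      obtain ⟨D, hD, hvD⟩ := Sylow.exists_subgroup_card_pow_prime_le p hdvd ((zpowers v).subgroupOf S)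
        (n := 1) (by
          rw [Nat.card_congr (Subgroup.subgroupOfEquivOfLe hvS).toEquiv, Nat.card_zpowers,
            orderOf_eq_prime (hMp v) hv1, pow_one]) hk1
      have hmem : (v : M) ∈ D.map S.subtype :=
        ⟨⟨v, hvS (mem_zpowers v)⟩, hvD (mem_zpowers v), rfl⟩
      exact hwS (Subgroup.map_subtype_le D (hinv t ht (D.map S.subtype)
        (by rw [Subgroup.card_map_of_injective S.subtype_injective, hD, hk]) v hmem))
    have hcomm : ∀ a b : T, a * b = b * a := by
      intro a b
      apply Subtype.ext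
      apply hρ
      refine MulEquiv.ext fun v => ?_
      obtain ⟨i, hi⟩ := mem_zpowers_iff.mp (hscal a a.2 v)
      obtain ⟨j, hj⟩ := mem_zpowers_iff.mp (hscal b b.2 v)
      show ρ ((a : X) * b) v = ρ ((b : X) * a) v
      rw [map_mul, map_mul, MulAut.mul_apply, MulAut.mul_apply, ← hj, map_zpow, ← hi, map_zpow,
        ← hj, ← zpow_mul, ← zpow_mul, mul_comm i j]
    have h2 : (QuaternionGroup.xa 0 : QuaternionGroup (2 ^ 1)) * QuaternionGroup.a 1 =
        QuaternionGroup.a 1 * QuaternionGroup.xa 0 := by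
      apply e.symm.injective
      rw [map_mul, map_mul, hcomm]
    exact absurd h2 (by decide +kernel)
  · push Not at hex
    have hcyc : ∀ q : ℕ, q.Prime → IsCyclic (Cfsg.pCore q X) := by
      intro q hq
      haveI := Fact.mk hq
      rcases core_cyclic_or_eight hB hρ hMp hM1 hline (q := q) with hc | ⟨rfl, ⟨e'⟩⟩
      · exact hc
      · exfalso
        refine hex _ (e'.symm (QuaternionGroup.xa 0)).2 ?_
        rw [Subgroup.orderOf_coe, MulEquiv.orderOf_eq, QuaternionGroup.orderOf_xa]
    set x : X := ((e.symm (QuaternionGroup.xa 0) : T) : X) with hx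
    set y : X := ((e.symm (QuaternionGroup.a 1) : T) : X) with hy
    obtain ⟨g, hg⟩ := hB (zpowers x) (zpowers y) inferInstance inferInstance (by
      rw [Nat.card_zpowers, Nat.card_zpowers, hx, hy, hT4, hT4, QuaternionGroup.orderOf_xa,
        QuaternionGroup.orderOf_a_one]; norm_num)
    have hgx : g * x * g⁻¹ ∈ zpowers y := hg ▸ ⟨x, mem_zpowers x, rfl⟩
    obtain ⟨n, hn⟩ := (isOfFinOrder_of_finite y).mem_powers_iff_mem_zpowers.mpr hgx
    have hc4 : orderOf ⁅g, x⁆ = 4 := by
      have h1 : ⁅g, x⁆ = ((e.symm (QuaternionGroup.a (n : ZMod (2 * 2 ^ 1)) *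
          (QuaternionGroup.xa 0)⁻¹) : T) : X) := by
        rw [commutatorElement_def, ← hn, map_mul, map_inv, ← QuaternionGroup.a_one_pow, map_pow]
        push_cast
        rfl
      rw [h1, hT4]
      have h2 : ∀ m : ZMod (2 * 2 ^ 1), ∃ j, QuaternionGroup.a m * (QuaternionGroup.xa 0)⁻¹ =
          (QuaternionGroup.xa j : QuaternionGroup (2 ^ 1)) := by decide +kernel
      obtain ⟨j, hj⟩ := h2 (n : ZMod (2 * 2 ^ 1))
      rw [hj, QuaternionGroup.orderOf_xa]
    have hcF : ⁅g, x⁆ ∈ Cfsg.fittingSubgroup X := by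
      refine Core.centralizer_fittingSubgroup_le ?_
      intro f hf
      rw [Core.fittingSubgroup_eq_iSup] at hf
      have hle : (⨆ q : {q : ℕ // q.Prime}, Cfsg.pCore q X) ≤ centralizer ({⁅g, x⁆} : Set X) := by
        refine iSup_le fun q o ho => mem_centralizer_singleton_iff.mpr ?_
        haveI := hcyc q.1 q.2
        set ψ : X →* MulAut (Cfsg.pCore q X) := MulAut.conjNormal
        have h1 : ψ ⁅g, x⁆ = 1 := by
          rw [map_commutatorElement]
          exact commutatorElement_eq_one_iff_mul_comm.mpr (mulAut_comm _ _)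
        have h2 := congrArg Subtype.val (DFunLike.congr_fun h1 (⟨o, ho⟩ : Cfsg.pCore q X))
        exact (mul_inv_eq_iff_eq_mul.mp (h2 : ⁅g, x⁆ * o * ⁅g, x⁆⁻¹ = o)).symm
      exact mem_centralizer_singleton_iff.mp (hle hf)
    have := mem_pCore_of_mem_fitting hcF (q := 2) (IsPGroup.of_card (n := 2)
      (by rw [Nat.card_zpowers, hc4]; norm_num))
    exact hex _ this hc4

end Action

end Cfsg.Agent.AbConjAll
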