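import Cfsg.Agent.AbConjAll.Faithful
import Cfsg.Agent.S3912
import Cfsg.Agent.Core.SchurZassenhaus

/-!
Solvable groups with conjugate abelian subgroups of equal order: all subgroups of equal order are
conjugate.
-/

set_option autoImplicit false
set_option linter.style.haveILetI false

namespace Cfsg.Agent.AbConjAll

open Subgroup Cfsg.Agent.FGS2
open scoped Pointwise

universe u

theorem q8_cases : ∀ q : QuaternionGroup (2 ^ 1), q = 1 ∨ q = QuaternionGroup.a 2 ∨
    (∃ i, q = QuaternionGroup.xa i) ∨ q = QuaternionGroup.a 1 ∨ q = QuaternionGroup.a 3 := by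
  decide +kernel

theorem q8_sq : ∀ q : QuaternionGroup (2 ^ 1), q ^ 2 = 1 ∨ q ^ 2 = QuaternionGroup.a 2 := by
  decide +kernel

theorem q8_ne : ∀ m : ZMod (2 * 2 ^ 1),
    (QuaternionGroup.a m)⁻¹ * QuaternionGroup.xa 0 ≠ (1 : QuaternionGroup (2 ^ 1)) ∧
      (QuaternionGroup.a m)⁻¹ * QuaternionGroup.xa 0 ≠
        (QuaternionGroup.a 2 : QuaternionGroup (2 ^ 1)) := by
  decide +kernel

theorem q8_a_one_ne : (QuaternionGroup.a 1 : QuaternionGroup (2 ^ 1)) ≠ 1 ∧
    (QuaternionGroup.a 1 : QuaternionGroup (2 ^ 1)) ≠ QuaternionGroup.a 2 := by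
  decide +kernel

theorem q8_order_a_three : orderOf (QuaternionGroup.a 3 : QuaternionGroup (2 ^ 1)) = 4 := by
  rw [QuaternionGroup.orderOf_a]
  decide +kernel

theorem isMulCommutative_mono {G : Type*} [Group G] {A B : Subgroup G} (h : A ≤ B)
    (hB : IsMulCommutative B) : IsMulCommutative A :=
  ⟨⟨fun a b => Subtype.ext
    (congrArg Subtype.val (hB.is_comm.comm (⟨a, h a.2⟩ : B) ⟨b, h b.2⟩) : (a : G) * b = b * a)⟩⟩

variable {G : Type u} [Group G]

theorem map_conj_map (A : Subgroup G) (g h : G) :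
    (A.map (MulAut.conj g).toMonoidHom).map (MulAut.conj h).toMonoidHom =
      A.map (MulAut.conj (h * g)).toMonoidHom := by
  rw [Subgroup.map_map]
  congr 1
  ext x
  simp [mul_assoc]

theorem map_conj_one (A : Subgroup G) : A.map (MulAut.conj (1 : G)).toMonoidHom = A := by
  have : (MulAut.conj (1 : G)).toMonoidHom = MonoidHom.id G := by ext x; simp
  rw [this, Subgroup.map_id]

theorem map_conj_normal (M : Subgroup G) [hM : M.Normal] (g : G) :
    M.map (MulAut.conj g).toMonoidHom = M := by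
  refine le_antisymm (map_conj_le_of_normal M g le_rfl) fun x hx =>
    ⟨g⁻¹ * x * g, by simpa [mul_assoc] using hM.conj_mem x hx g⁻¹, ?_⟩
  simp [mul_assoc]

theorem card_map_conj (A : Subgroup G) (g : G) :
    Nat.card (A.map (MulAut.conj g).toMonoidHom) = Nat.card A :=
  Subgroup.card_map_of_injective (MulAut.conj g).injective

theorem conj_fix (A : Subgroup G) {g : G} (h : g ∈ normalizer (A : Set G)) :
    A.map (MulAut.conj g).toMonoidHom = A := by
  ext x
  constructor
  · rintro ⟨y, hy, rfl⟩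
    exact (mem_normalizer_iff.mp h y).mp hy
  · intro hx
    refine ⟨g⁻¹ * x * g, (mem_normalizer_iff.mp h _).mpr ?_, by simp [mul_assoc]⟩
    simpa [mul_assoc] using hx

theorem mem_normalizer_of_map_eq (A : Subgroup G) {g : G}
    (h : A.map (MulAut.conj g).toMonoidHom = A) : g ∈ normalizer (A : Set G) := by
  refine mem_normalizer_iff.mpr fun x => ⟨fun hx => h ▸ ⟨x, hx, rfl⟩, fun hx => ?_⟩
  rw [← h] at hx
  obtain ⟨y, hy, hyx⟩ := hx
  rwa [← (MulAut.conj g).injective hyx]

variable [Finite G]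

theorem eq_pow_one_part {U L : Subgroup G} (hUc : IsMulCommutative U) (hL : L ≤ U)
    (hcop : Nat.Coprime (Nat.card L) (L.relIndex U)) {x : G} (hxU : x ∈ U)
    (hx : x ^ Nat.card L = 1) : x ∈ L := by
  haveI : (L.subgroupOf U).Normal := ⟨fun n hn g => by
    rw [hUc.is_comm.comm g n, mul_inv_cancel_right]; exact hn⟩
  have h1 : (x : G) ^ L.relIndex U ∈ L := Subgroup.mem_subgroupOf.mp
    ((L.subgroupOf U).pow_index_mem (⟨x, hxU⟩ : U))
  have hd : orderOf x ∣ Nat.card L := orderOf_dvd_of_pow_eq_one hx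
  obtain ⟨e, he⟩ := exists_pow_eq_self_of_coprime (x := x) (hcop.symm.coprime_dvd_right hd)
  rw [← he]
  exact L.pow_mem h1 e

/-- Conjugating abelian subgroups prime by prime. -/
theorem conj_abelian_in {p : ℕ} [hp : Fact p.Prime] (hB : AbConj G) (C : Subgroup G)
    (hCc : IsMulCommutative C) (hCp : IsPGroup p C) :
    ∀ (n : ℕ) (Y : Subgroup G), Y = normalizer (C : Set G) →
      ∀ L L' : Subgroup G, L ≤ Y → L' ≤ Y → IsMulCommutative L → IsMulCommutative L' →
      Nat.card L = n → Nat.card L' = n → ¬ p ∣ n →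
      (∀ (r : ℕ) [Fact r.Prime], r ∣ n → ∀ T : Subgroup G, T ≤ Y → IsPGroup r T →
        IsCyclic T ∨ T ≤ centralizer (C : Set G)) →
      ∃ y ∈ Y, L' = L.map (MulAut.conj y).toMonoidHom := by
  intro n
  induction n using Nat.strong_induction_on with
  | _ n IH =>
  intro Y hY L L' hL hL' hLc hL'c hn hn' hpn hT
  classical
  by_cases hcyc : ∃ r : ℕ, r.Prime ∧ r ∣ n ∧ ∀ T : Subgroup G, T ≤ Y → IsPGroup r T → IsCyclic T
  · obtain ⟨r, hr, hrn, hrT⟩ := hcyc
    haveI := Fact.mk hr
    have hn0 : n ≠ 0 := hn ▸ Nat.card_pos.ne'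
    obtain ⟨a, m, hrm, rfl⟩ := Nat.exists_eq_pow_mul_and_not_dvd hn0 r hr.ne_one
    have ha0 : a ≠ 0 := fun h => hrm (by simpa [h] using hrn)
    -- split both groups
    have split : ∀ L : Subgroup G, IsMulCommutative L → Nat.card L = r ^ a * m →
        ∃ Q R : Subgroup G, Q ≤ L ∧ R ≤ L ∧ IsPGroup r Q ∧ Nat.card Q = r ^ a ∧ Nat.card R = m ∧
          L = Q ⊔ R := by
      intro L hLc hcard
      letI : CommGroup L := { (inferInstance : Group L) with mul_comm := hLc.is_comm.comm }
      obtain ⟨Q⟩ : Nonempty (Sylow r L) := inferInstance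
      have hQ : Nat.card Q = r ^ a := by
        rw [Q.card_eq_multiplicity, hcard, Nat.factorization_mul (pow_ne_zero _ hr.ne_zero)
          (fun h => hrm (by rw [h]; exact dvd_zero r))]
        simp [hr.factorization_self, Nat.factorization_eq_zero_of_not_dvd hrm]
      obtain ⟨R, hR⟩ := Subgroup.exists_right_complement'_of_coprime (N := (Q : Subgroup L))
        Q.card_coprime_index
      have hRc : Nat.card R = m := by
        have := hR.card_mul
        rw [hcard] at this
        exact Nat.eq_of_mul_eq_mul_left (pow_pos hr.pos a) (hQ ▸ this)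
      refine ⟨(Q : Subgroup L).map L.subtype, R.map L.subtype, Subgroup.map_subtype_le _,
        Subgroup.map_subtype_le _, Q.isPGroup'.map _, ?_, ?_, ?_⟩
      · rw [Subgroup.card_map_of_injective L.subtype_injective]; exact hQ
      · rw [Subgroup.card_map_of_injective L.subtype_injective, hRc]
      · rw [← Subgroup.map_sup, hR.sup_eq_top, ← MonoidHom.range_eq_map, Subgroup.range_subtype]
    obtain ⟨Q, R, hQL, hRL, hQp, hQa, hRm, hLQR⟩ := split L hLc hn
    obtain ⟨Q', R', hQL', hRL', hQp', hQa', hRm', hLQR'⟩ := split L' hL'c hn'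
    have hmlt : m < r ^ a * m := by
      have : 1 < r ^ a := Nat.one_lt_pow ha0 hr.one_lt
      have hm0 : 0 < m := Nat.pos_of_ne_zero fun h => hrm (by rw [h]; exact dvd_zero r)
      calc m = 1 * m := (one_mul m).symm
        _ < r ^ a * m := Nat.mul_lt_mul_of_lt_of_le this le_rfl hm0
    obtain ⟨y, hy, hyR⟩ := IH m hmlt Y hY R R' (hRL.trans hL) (hRL'.trans hL')
      (isMulCommutative_mono hRL hLc) (isMulCommutative_mono hRL' hL'c) hRm hRm'
      (fun h => hpn (dvd_mul_of_dvd_right h _))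
      (fun s _ hs => hT s (dvd_mul_of_dvd_right hs _))
    set Z := Y ⊓ centralizer (R' : Set G) with hZ
    set Q₁ := Q.map (MulAut.conj y).toMonoidHom with hQ₁
    have hQ₁Z : Q₁ ≤ Z := by
      rintro _ ⟨q, hq, rfl⟩
      refine ⟨Y.mul_mem (Y.mul_mem hy (hL (hQL hq))) (Y.inv_mem hy), fun z hz => ?_⟩
      rw [hyR] at hz
      obtain ⟨w, hw, rfl⟩ := hz
      have hwq : w * q = q * w :=
        congrArg Subtype.val (hLc.is_comm.comm (⟨w, hRL hw⟩ : L) ⟨q, hQL hq⟩)
      simp only [MulEquiv.coe_toMonoidHom]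
      rw [← map_mul, ← map_mul, hwq]
    have hQ'Z : Q' ≤ Z := fun q hq => ⟨hL' (hQL' hq), fun z hz =>
      congrArg Subtype.val (hL'c.is_comm.comm (⟨z, hRL' hz⟩ : L') ⟨q, hQL' hq⟩)⟩
    obtain ⟨S₁, hS₁⟩ := ((hQp.map _).comap_subtype (K := Z) : IsPGroup r (Q₁.subgroupOf Z)).exists_le_sylow
    obtain ⟨S₂, hS₂⟩ := (hQp'.comap_subtype (K := Z) : IsPGroup r (Q'.subgroupOf Z)).exists_le_sylow
    obtain ⟨z, hz⟩ := MulAction.exists_smul_eq Z S₁ S₂
    set S := (S₂ : Subgroup Z).map Z.subtype with hS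
    haveI : IsCyclic S := hrT S ((Subgroup.map_subtype_le _).trans inf_le_left) (S₂.isPGroup'.map _)
    have h1 : Q₁.map (MulAut.conj (z : G)).toMonoidHom ≤ S := by
      rintro _ ⟨q, hq, rfl⟩
      refine ⟨z * ⟨q, hQ₁Z hq⟩ * z⁻¹, ?_, rfl⟩
      rw [← hz, Sylow.coe_subgroup_smul]
      exact ⟨⟨q, hQ₁Z hq⟩, hS₁ hq, rfl⟩
    have h2 : Q' ≤ S := fun q hq => ⟨⟨q, hQ'Z hq⟩, hS₂ hq, rfl⟩
    have h3 : Q₁.map (MulAut.conj (z : G)).toMonoidHom = Q' := by
      have h4 := subgroup_eq_of_card_eq
        (H := (Q₁.map (MulAut.conj (z : G)).toMonoidHom).subgroupOf S) (K := Q'.subgroupOf S) (by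
        rw [Nat.card_congr (Subgroup.subgroupOfEquivOfLe h1).toEquiv,
          Nat.card_congr (Subgroup.subgroupOfEquivOfLe h2).toEquiv, hQ₁, card_map_conj, card_map_conj,
          hQa, hQa'])
      rw [← inf_eq_left.mpr h1, ← inf_eq_left.mpr h2, ← Subgroup.subgroupOf_map_subtype,
        ← Subgroup.subgroupOf_map_subtype, h4]
    refine ⟨(z : G) * y, Y.mul_mem z.2.1 hy, ?_⟩
    rw [hLQR', hLQR, Subgroup.map_sup, ← map_conj_map, ← hQ₁, h3, ← map_conj_map, ← hyR,
      conj_fix R' (Subgroup.centralizer_le_normalizer _ z.2.2)]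
  · -- every prime part centralizes `C`
    push Not at hcyc
    have hcen : ∀ L : Subgroup G, L ≤ Y → Nat.card L = n → L ≤ centralizer (C : Set G) := by
      intro L hL hn
      refine le_of_prime_power_mem fun x hx ⟨r, b, hr, hb⟩ => ?_
      rcases Nat.eq_zero_or_pos b with rfl | hb0
      · rw [show x = 1 from orderOf_eq_one_iff.mp (by rw [hb, pow_zero])]; exact one_mem _
      haveI := Fact.mk hr
      have hrn : r ∣ n := hn ▸ (dvd_pow_self r hb0.ne').trans
        (hb ▸ Subgroup.orderOf_dvd_natCard L hx)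
      obtain ⟨T₀, hT₀Y, hT₀p, hT₀c⟩ := hcyc r hr hrn
      have hxY : zpowers x ≤ Y := zpowers_le.mpr (hL hx)
      obtain ⟨S₁, hS₁⟩ := ((IsPGroup.of_card (n := b) (by rw [Nat.card_zpowers, hb]) :
        IsPGroup r (zpowers x)).comap_subtype (K := Y) :
          IsPGroup r ((zpowers x).subgroupOf Y)).exists_le_sylow
      have hS : (S₁ : Subgroup Y).map Y.subtype ≤ Y := Subgroup.map_subtype_le _
      rcases hT r hrn _ hS (S₁.isPGroup'.map _) with hc | hc
      · exfalso
        obtain ⟨S₂, hS₂⟩ := (hT₀p.comap_subtype (K := Y) : IsPGroup r (T₀.subgroupOf Y)).exists_le_sylow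
        haveI : IsCyclic S₁ := isCyclic_of_injective
          ((S₁ : Subgroup Y).equivMapOfInjective Y.subtype Y.subtype_injective).toMonoidHom
          ((S₁ : Subgroup Y).equivMapOfInjective Y.subtype Y.subtype_injective).injective
        haveI : IsCyclic S₂ := isCyclic_of_injective (S₂.equiv S₁).toMonoidHom (S₂.equiv S₁).injective
        haveI : IsCyclic (T₀.subgroupOf Y) := isCyclic_of_injective (Subgroup.inclusion hS₂)
          (Subgroup.inclusion_injective hS₂)
        exact hT₀c (isCyclic_of_injective (Subgroup.subgroupOfEquivOfLe hT₀Y).symm.toMonoidHom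
          (Subgroup.subgroupOfEquivOfLe hT₀Y).symm.injective)
      · exact hc ⟨⟨x, hL hx⟩, hS₁ (mem_zpowers x), rfl⟩
    have hsup : ∀ L : Subgroup G, IsMulCommutative L → L ≤ centralizer (C : Set G) →
        IsMulCommutative (C ⊔ L : Subgroup G) := by
      intro L hLc hcL
      rw [Subgroup.sup_eq_closure]
      refine Subgroup.isMulCommutative_closure ?_
      rintro x (hx | hx) y (hy | hy)
      · exact congrArg Subtype.val (hCc.is_comm.comm (⟨x, hx⟩ : C) ⟨y, hy⟩)
      · exact hcL hy x hx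
      · exact (hcL hx y hy).symm
      · exact congrArg Subtype.val (hLc.is_comm.comm (⟨x, hx⟩ : L) ⟨y, hy⟩)
    have hcard : ∀ L : Subgroup G, L ≤ centralizer (C : Set G) → Nat.card L = n →
        Nat.card (C ⊔ L : Subgroup G) = Nat.card C * n := by
      intro L hcL hn
      rw [Coprime.card_sup (hcL.trans (Subgroup.centralizer_le_normalizer _)) (Subgroup.inf_eq_bot_of_coprime (by
        obtain ⟨k, hk⟩ := IsPGroup.iff_card.mp hCp
        rw [hk, hn]
        exact (hp.out.coprime_iff_not_dvd.mpr hpn).pow_left k)), hn]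
    obtain ⟨g, hg⟩ := hB (C ⊔ L) (C ⊔ L') (hsup L hLc (hcen L hL hn)) (hsup L' hL'c (hcen L' hL' hn'))
      (by rw [hcard L (hcen L hL hn) hn, hcard L' (hcen L' hL' hn') hn'])
    have hcop : ∀ L : Subgroup G, L ≤ centralizer (C : Set G) → Nat.card L = n →
        Nat.Coprime (Nat.card L) (L.relIndex (C ⊔ L : Subgroup G)) := by
      intro L hcL hn
      have h := Subgroup.relIndex_mul_relIndex ⊥ L (C ⊔ L) bot_le le_sup_right
      rw [Subgroup.relIndex_bot_left, Subgroup.relIndex_bot_left, hcard L hcL hn, hn, mul_comm n] at h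
      rw [hn, Nat.eq_of_mul_eq_mul_right (hn ▸ Nat.card_pos) h]
      obtain ⟨k, hk⟩ := IsPGroup.iff_card.mp hCp
      rw [hk]
      exact ((hp.out.coprime_iff_not_dvd.mpr hpn).pow_left k).symm
    have hLmap : L' = L.map (MulAut.conj g).toMonoidHom := by
      refine (Subgroup.eq_of_le_of_card_ge ?_ (by rw [card_map_conj, hn, hn'])).symm
      rintro _ ⟨x, hx, rfl⟩
      refine eq_pow_one_part (hsup L' hL'c (hcen L' hL' hn')) le_sup_right
        (hcop L' (hcen L' hL' hn') hn') (hg ▸ ⟨x, mem_sup_right hx, rfl⟩) ?_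
      rw [← map_pow, hn', ← hn, ← map_one (MulAut.conj g).toMonoidHom]
      congr 1
      have := congrArg Subtype.val (pow_card_eq_one' (x := (⟨x, hx⟩ : L)))
      rw [SubmonoidClass.coe_pow, OneMemClass.coe_one] at this
      exact this
    refine ⟨g, hY ▸ mem_normalizer_of_map_eq C ?_, hLmap⟩
    refine Subgroup.eq_of_le_of_card_ge ?_ (by rw [card_map_conj])
    rintro _ ⟨x, hx, rfl⟩
    refine eq_pow_one_part (hsup L' hL'c (hcen L' hL' hn')) le_sup_left ?_
      (hg ▸ ⟨x, mem_sup_left hx, rfl⟩) ?_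
    · have h := Subgroup.relIndex_mul_relIndex ⊥ C (C ⊔ L') bot_le le_sup_left
      rw [Subgroup.relIndex_bot_left, Subgroup.relIndex_bot_left, hcard L' (hcen L' hL' hn') hn'] at h
      rw [Nat.eq_of_mul_eq_mul_left Nat.card_pos h]
      obtain ⟨k, hk⟩ := IsPGroup.iff_card.mp hCp
      rw [hk]
      exact (hp.out.coprime_iff_not_dvd.mpr hpn).pow_left k
    · rw [← map_pow, ← map_one (MulAut.conj g).toMonoidHom]
      congr 1
      have := congrArg Subtype.val (pow_card_eq_one' (x := (⟨x, hx⟩ : C)))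
      rw [SubmonoidClass.coe_pow, OneMemClass.coe_one] at this
      exact this

/-- The Sylow subgroups of the normaliser of a proper part of `M`. -/
theorem cyclic_or_centralizes [Group.IsSolvable G] (hB : AbConj G) {p : ℕ} [hp : Fact p.Prime]
    (M : Subgroup G) [M.Normal] (hM : Core.IsMinNormal M) (hMc : IsMulCommutative M)
    (hMp : ∀ m ∈ M, m ^ p = 1) (C : Subgroup G) (hCM : C < M) (hC0 : C ≠ ⊥)
    {r : ℕ} [hr : Fact r.Prime] (T : Subgroup G) (hT : T ≤ normalizer (C : Set G))
    (hTr : IsPGroup r T) : IsCyclic T ∨ T ≤ centralizer (C : Set G) := by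
  classical
  obtain ⟨P, hTP⟩ := hTr.exists_le_sylow
  by_cases hTc : IsCyclic T
  · exact Or.inl hTc
  right
  set K := centralizer (M : Set G) with hK
  haveI : K.Normal := inferInstance
  have hKC : K ≤ centralizer (C : Set G) := Subgroup.centralizer_le hCM.le
  -- a single element of `T` in `K` pulls in all of its order
  have hpull : ∀ a ∈ T, a ∈ K → ∀ b : G, orderOf b = orderOf a → b ∈ K := fun a _ haK b hb =>
    absorb hB K haK hb.symm
  letI : CommGroup M := { (inferInstance : Group M) with mul_comm := hMc.is_comm.comm }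
  haveI : Group.IsSolvable (G ⧸ K) := Group.isSolvable_of_surjective (QuotientGroup.mk'_surjective K)
  let ρ : G ⧸ K →* MulAut M := QuotientGroup.lift K MulAut.conjNormal fun k hk => by
    refine MonoidHom.mem_ker.mpr (MulEquiv.ext fun m => Subtype.ext ?_)
    show k * m * k⁻¹ = m
    rw [← hk m m.2, mul_inv_cancel_right]
  have hρmk : ∀ (g : G) (m : M), ((ρ (g : G ⧸ K) m : M) : G) = g * m * g⁻¹ := fun g m => rfl
  have hρ : Function.Injective ρ := by
    refine (injective_iff_map_eq_one ρ).mpr fun x hx => ?_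
    obtain ⟨g, rfl⟩ := QuotientGroup.mk_surjective x
    refine (QuotientGroup.eq_one_iff g).mpr fun m hm => ?_
    have h := hρmk g ⟨m, hm⟩
    rw [hx] at h
    exact eq_mul_inv_iff_mul_eq.mp h
  have hBX : AbConj (G ⧸ K) := Cfsg.Agent.S3912.result hB inferInstance K
  have hMp' : ∀ m : M, m ^ p = 1 := fun m => Subtype.ext (by simpa using hMp m m.2)
  have hM1 : ∃ m : M, m ≠ 1 := by
    by_contra! hall
    exact hM.2.1 ((Subgroup.eq_bot_iff_forall M).mpr fun m hm => congrArg Subtype.val (hall ⟨m, hm⟩))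
  have hsubgen : ∀ D E : Subgroup M, Nat.card D = Nat.card E → ∃ x, D.map (ρ x).toMonoidHom = E := by
    intro D E hDE
    obtain ⟨g, hg⟩ := hB (D.map M.subtype) (E.map M.subtype)
      (isMulCommutative_mono (Subgroup.map_subtype_le D) hMc)
      (isMulCommutative_mono (Subgroup.map_subtype_le E) hMc)
      (by rw [Subgroup.card_map_of_injective M.subtype_injective,
        Subgroup.card_map_of_injective M.subtype_injective, hDE])
    refine ⟨(g : G ⧸ K), Subgroup.map_injective M.subtype_injective ?_⟩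
    rw [hg, Subgroup.map_map, Subgroup.map_map]
    congr 1
  have hline : ∀ u v : M, u ≠ 1 → v ≠ 1 → ∃ x, zpowers (ρ x u) = zpowers v := by
    intro u v hu hv
    obtain ⟨x, hx⟩ := hsubgen (zpowers u) (zpowers v) (by
      rw [Nat.card_zpowers, Nat.card_zpowers, orderOf_eq_prime (hMp' u) hu, orderOf_eq_prime (hMp' v) hv])
    exact ⟨x, by rw [← hx, MonoidHom.map_zpowers]; rfl⟩
  let π := QuotientGroup.mk' K
  have hπK : ∀ {a : G}, π a = 1 ↔ a ∈ K := fun {a} => QuotientGroup.eq_one_iff a
  rcases Cfsg.Agent.S3908.exponent_or_unique hB (P : Subgroup G) P.2 with hexp | huni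
  · -- exponent `r`: two independent commuting elements
    intro x hx
    by_contra hxC
    have hxK : x ∉ K := fun h => hxC (hKC h)
    have hx1 : x ≠ 1 := fun h => hxK (h ▸ one_mem K)
    have hinj : ∀ a ∈ T, a ∈ K → a = 1 := fun a ha haK => by
      by_contra ha1
      exact hxK (hpull a ha haK x ((orderOf_eq_prime (hexp x (hTP hx)) hx1).trans
        (orderOf_eq_prime (hexp a (hTP ha)) ha1).symm))
    haveI : Nontrivial T := ⟨⟨⟨x, hx⟩, 1, fun e => hx1 (congrArg Subtype.val e)⟩⟩
    haveI := hTr.center_nontrivial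
    obtain ⟨⟨⟨c, hcT⟩, hcc⟩, hc1⟩ := exists_ne (1 : center T)
    have hc1' : c ≠ 1 := fun e => hc1 (Subtype.ext (Subtype.ext e))
    obtain ⟨d, hdT, hd⟩ : ∃ d ∈ T, d ∉ zpowers c := by
      by_contra! hall
      exact hTc (isCyclic_of_injective (Subgroup.inclusion hall) (Subgroup.inclusion_injective hall))
    have hcd : Commute c d := (congrArg Subtype.val (mem_center_iff.mp hcc ⟨d, hdT⟩)).symm
    refine no_rank_two hBX hρ hMp' hM1 hline (a := π c) (b := π d)
      (by rw [← map_pow, hexp c (hTP hcT), map_one]) (by rw [← map_pow, hexp d (hTP hdT), map_one])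
      (hcd.map π) (fun e => hc1' (hinj c hcT (hπK.mp e))) fun hm => hd ?_
    obtain ⟨i, hi⟩ := mem_zpowers_iff.mp hm
    refine mem_zpowers_iff.mpr ⟨i, eq_of_inv_mul_eq_one (hinj _ (T.mul_mem (T.inv_mem
      (T.zpow_mem hcT i)) hdT) (hπK.mp ?_))⟩
    rw [map_mul, map_inv, map_zpow, hi, inv_mul_cancel]
  · -- unique involution: quaternion of order eight
    have hPnc : ¬ IsCyclic (P : Subgroup G) := fun hc => by
      haveI := hc
      exact hTc (isCyclic_of_injective (Subgroup.inclusion hTP) (Subgroup.inclusion_injective hTP))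
    obtain ⟨rfl, k₀, ⟨eP⟩⟩ := (OddLocal.isCyclic_or_quaternion P.2 huni).resolve_left hPnc
    have hP8 := card_sylow_eq_eight hB P huni hPnc
    have hTu : OddLocal.UniqueOrderP 2 T := fun a b ha hb ha1 => by
      have h := huni ⟨a, hTP a.2⟩ ⟨b, hTP b.2⟩
        (Subtype.ext (by simpa using congrArg Subtype.val ha))
        (Subtype.ext (by simpa using congrArg Subtype.val hb))
        (fun e => ha1 (Subtype.ext (by simpa using congrArg Subtype.val e)))
      obtain ⟨i, hi⟩ := mem_zpowers_iff.mp h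
      exact mem_zpowers_iff.mpr ⟨i, Subtype.ext (by simpa using congrArg Subtype.val hi)⟩
    obtain ⟨-, k, ⟨e⟩⟩ := (OddLocal.isCyclic_or_quaternion hTr hTu).resolve_left hTc
    haveI : NeZero (2 ^ k) := ⟨by positivity⟩
    have hk1 : k = 1 := by
      have hle := Subgroup.card_le_of_le hTP
      rw [hP8, Nat.card_congr e.toEquiv, Nat.card_eq_fintype_card, QuaternionGroup.card] at hle
      have hk : k ≤ 1 := by
        by_contra hk
        have := Nat.pow_le_pow_right (show 0 < 2 by norm_num) (show 2 ≤ k by omega)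
        omega
      interval_cases k
      · exfalso
        apply hTc
        refine isCyclic_of_orderOf_eq_card (e.symm (QuaternionGroup.xa 0)) ?_
        rw [MulEquiv.orderOf_eq, QuaternionGroup.orderOf_xa, Nat.card_congr e.toEquiv,
          Nat.card_eq_fintype_card, QuaternionGroup.card]
        norm_num
      · rfl
    subst hk1
    intro x hx
    by_contra hxC
    have hno4 : ∀ q : QuaternionGroup (2 ^ 1), orderOf q = 4 → ((e.symm q : T) : G) ∉ K := by
      intro q hq hmem
      apply hxC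
      apply hKC
      have h := quaternion_le_of_order_four (K.comap (T.subtype.comp e.symm.toMonoidHom))
        fun q' hq' => hpull _ (e.symm q).2 hmem _ (by
          show orderOf ((e.symm q' : T) : G) = _
          rw [Subgroup.orderOf_coe, Subgroup.orderOf_coe, MulEquiv.orderOf_eq, MulEquiv.orderOf_eq, hq, hq'])
      have h2 : e ⟨x, hx⟩ ∈ K.comap (T.subtype.comp e.symm.toMonoidHom) := h ▸ Subgroup.mem_top _
      simpa using h2
    set f : T →* G ⧸ K := π.comp T.subtype with hf
    have hsmall : ∀ t : T, t ∈ f.ker → e t = 1 ∨ e t = QuaternionGroup.a 2 := by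
      intro t ht
      rcases q8_cases (e t) with h | h | ⟨i, h⟩ | h | h
      · exact Or.inl h
      · exact Or.inr h
      all_goals exfalso; refine hno4 (e t) ?_ (by rw [e.symm_apply_apply]; exact hπK.mp ht); rw [h]
      · exact QuaternionGroup.orderOf_xa i
      · rw [QuaternionGroup.orderOf_a_one]; norm_num
      · exact q8_order_a_three
    by_cases hz : QuaternionGroup.a 2 ∈ f.ker.map e.toMonoidHom
    · -- the image is a four-group
      obtain ⟨z, hz, hze⟩ := hz
      have hsqk : ∀ t : T, (f t) ^ 2 = 1 := by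
        intro t
        rw [← map_pow, ← MonoidHom.mem_ker]
        rcases q8_sq (e t) with h | h
        · rw [← map_pow, e.map_eq_one_iff] at h; rw [h]; exact one_mem _
        · rw [← map_pow, ← hze] at h
          rw [e.injective h]; exact hz
      set a := e.symm (QuaternionGroup.a 1)
      set b := e.symm (QuaternionGroup.xa 0)
      refine no_rank_two hBX hρ hMp' hM1 hline (r := 2) (a := f a) (b := f b) (hsqk a) (hsqk b) ?_ ?_ ?_
      · have hmul := hsqk (a * b)
        rw [map_mul, pow_two] at hmul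
        have ha := hsqk a
        have hb := hsqk b
        rw [pow_two] at ha hb
        show f a * f b = f b * f a
        rw [← inv_eq_of_mul_eq_one_left hmul, mul_inv_rev, inv_eq_of_mul_eq_one_left ha,
          inv_eq_of_mul_eq_one_left hb]
      · intro h
        rcases hsmall a (MonoidHom.mem_ker.mpr h) with h' | h' <;>
          (simp only [a, MulEquiv.apply_symm_apply] at h'
           exact absurd h' (by first | exact q8_a_one_ne.1 | exact q8_a_one_ne.2))
      · intro hm
        obtain ⟨n, hn⟩ := (isOfFinOrder_of_finite (f a)).mem_powers_iff_mem_zpowers.mpr hm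
        have hker : (a ^ n)⁻¹ * b ∈ f.ker := by
          rw [MonoidHom.mem_ker, map_mul, map_inv, map_pow, ← hn, inv_mul_cancel]
        rcases hsmall _ hker with h' | h' <;>
        · simp only [a, b, map_mul, map_inv, map_pow, MulEquiv.apply_symm_apply,
            QuaternionGroup.a_one_pow] at h'
          exact absurd h' (by first | exact (q8_ne _).1 | exact (q8_ne _).2)
    · -- the image is quaternion
      have hinj : Function.Injective f := by
        refine (injective_iff_map_eq_one f).mpr fun t ht => ?_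
        rcases hsmall t ht with h | h
        · exact e.map_eq_one_iff.mp h
        · exact absurd ⟨t, ht, h⟩ hz
      refine no_quaternion hBX hρ hMp' hM1 hline f.range ((MonoidHom.ofInjective hinj).symm.trans e)
        (C.subgroupOf M) ?_ ?_ ?_ fun D hD => hsubgen _ _ hD.symm
      · rw [ne_eq, Subgroup.subgroupOf_eq_bot, disjoint_iff, inf_of_le_left hCM.le]
        exact hC0
      · rw [ne_eq, Subgroup.subgroupOf_eq_top]
        exact hCM.not_ge
      · rintro _ ⟨t, rfl⟩ c hc
        exact (mem_normalizer_iff.mp (hT t.2) (c : G)).mp hc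

/-- All subgroups of equal order are conjugate. -/
theorem conj_all : ∀ (n : ℕ) (G : Type u) [Group G] [Finite G] [Group.IsSolvable G], Nat.card G = n →
    AbConj G → ∀ A B : Subgroup G, Nat.card A = Nat.card B →
      ∃ g : G, B = A.map (MulAut.conj g).toMonoidHom := by
  intro n
  induction n using Nat.strong_induction_on with
  | _ n IH =>
  intro G _ _ _ hn hB A B hAB
  classical
  rcases subsingleton_or_nontrivial G with hsub | hnt
  · exact ⟨1, by
      rw [map_conj_one]
      ext x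
      rw [Subsingleton.elim x 1]
      simp⟩
  obtain ⟨M, hM⟩ := Core.exists_isMinNormal (G := G)
  haveI := hM.1
  obtain ⟨hMc, p, hp, hMe, hMg⟩ := hM.elementaryAbelian_of_isSolvable
  haveI := Fact.mk hp
  have hMel : Cfsg.IsElementaryAbelian p M := ⟨hMc, hMe⟩
  obtain ⟨t, ht⟩ := IsPGroup.iff_card.mp hMg
  have hlt : ∀ Y : Subgroup G, Nat.card (↥Y ⧸ M.subgroupOf Y) < n ∨ ¬ M ≤ Y := by
    intro Y
    by_cases hMY : M ≤ Y
    swap
    · exact Or.inr hMY
    left
    have h1 := Subgroup.card_eq_card_quotient_mul_card_subgroup (M.subgroupOf Y)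
    have h2 : 1 < Nat.card (M.subgroupOf Y) := by
      rw [Nat.card_congr (Subgroup.subgroupOfEquivOfLe hMY).toEquiv]
      exact (Subgroup.one_lt_card_iff_ne_bot M).mpr hM.2.1
    have h3 := Subgroup.card_le_card_group Y
    have h4 : 0 < Nat.card (↥Y ⧸ M.subgroupOf Y) := Nat.card_pos
    nlinarith
  -- lifting a conjugation from a quotient by `M`
  have lift : ∀ (Y : Subgroup G), M ≤ Y → AbConj (↥Y ⧸ M.subgroupOf Y) →
      ∀ U V : Subgroup G, M ≤ U → M ≤ V → U ≤ Y → V ≤ Y → Nat.card U = Nat.card V →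
      ∃ y ∈ Y, V = U.map (MulAut.conj y).toMonoidHom := by
    intro Y hMY hBq U V hMU hMV hUY hVY hUV
    let f := QuotientGroup.mk' (M.subgroupOf Y)
    have hcard : ∀ W : Subgroup G, M ≤ W → W ≤ Y →
        Nat.card ((W.subgroupOf Y).map f) * Nat.card M = Nat.card W := by
      intro W hMW hWY
      have h1 := Subgroup.card_mul_index ((M.subgroupOf Y).subgroupOf (W.subgroupOf Y))
      rw [Nat.card_congr (Subgroup.subgroupOfEquivOfLe (H := M.subgroupOf Y) (K := W.subgroupOf Y)
          (Subgroup.comap_mono hMW)).toEquiv,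
        Nat.card_congr (Subgroup.subgroupOfEquivOfLe hMY).toEquiv,
        Nat.card_congr (Subgroup.subgroupOfEquivOfLe hWY).toEquiv] at h1
      rw [← h1, ← Subgroup.relIndex_ker (f := f), QuotientGroup.ker_mk', Subgroup.relIndex, mul_comm]
    haveI : Group.IsSolvable (↥Y ⧸ M.subgroupOf Y) :=
      Group.isSolvable_of_surjective (QuotientGroup.mk'_surjective _)
    obtain ⟨q, hq⟩ := IH _ ((hlt Y).resolve_right fun h => h hMY) _ rfl hBq
      ((U.subgroupOf Y).map f) ((V.subgroupOf Y).map f) (by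
        refine Nat.eq_of_mul_eq_mul_right (Nat.card_pos (α := M)) ?_
        rw [hcard U hMU hUY, hcard V hMV hVY, hUV])
    obtain ⟨y, rfl⟩ := QuotientGroup.mk'_surjective _ q
    refine ⟨y, y.2, (Subgroup.eq_of_le_of_card_ge ?_ (by rw [card_map_conj, hUV])).symm⟩
    rintro _ ⟨u, hu, rfl⟩
    have hmem : f (y * ⟨u, hUY hu⟩ * y⁻¹) ∈ (V.subgroupOf Y).map f :=
      hq ▸ ⟨f ⟨u, hUY hu⟩, mem_map_of_mem f hu, by simp only [map_mul, map_inv]; rfl⟩
    obtain ⟨v, hv, hve⟩ := hmem
    have hd : v⁻¹ * (y * ⟨u, hUY hu⟩ * y⁻¹) ∈ M.subgroupOf Y := QuotientGroup.eq.mp hve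
    have := V.mul_mem (show (v : G) ∈ V from hv) (hMV (Subgroup.mem_subgroupOf.mp hd))
    simpa using this
  have htop : AbConj (G ⧸ M) := Cfsg.Agent.S3912.result hB inferInstance M
  have htopq : AbConj (↥(⊤ : Subgroup G) ⧸ M.subgroupOf ⊤) := htop.congr
    (QuotientGroup.congr M (M.subgroupOf ⊤) Subgroup.topEquiv.symm (by
      ext x
      simp only [Subgroup.mem_map, Subgroup.mem_subgroupOf]
      exact ⟨fun ⟨a, ha, hax⟩ => hax ▸ ha, fun h => ⟨(x : G), h, Subtype.ext rfl⟩⟩))
  have hsup : ∀ X : Subgroup G, X ≤ normalizer (M : Set G) := fun X => by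
    rw [Subgroup.normalizer_eq_top]; exact le_top
  by_cases hMA : M ≤ A ∧ M ≤ B
  · obtain ⟨y, -, hy⟩ := lift ⊤ le_top htopq A B hMA.1 hMA.2 le_top le_top hAB
    exact ⟨y, hy⟩
  rcases le_or_gt 2 t with ht2 | ht2
  swap
  · -- `M` of prime order
    have ht1 : t = 1 := by
      by_contra h
      exact hM.2.1 (Subgroup.card_eq_one.mp (by rw [ht, show t = 0 by omega, pow_zero]))
    subst ht1
    rw [pow_one] at ht
    have hpA : ¬ p ∣ Nat.card A := by
      intro h
      apply hMA
      have : ∀ W : Subgroup G, p ∣ Nat.card W → M ≤ W := by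
        intro W hW m hm
        obtain ⟨w, hw⟩ := exists_prime_orderOf_dvd_card' (G := W) p hW
        rw [← Subgroup.orderOf_coe] at hw
        by_cases hm1 : m = 1
        · exact hm1 ▸ one_mem _
        have hwM : (w : G) ∈ M := absorb hB M hm ((orderOf_eq_prime (hMe m hm) hm1).trans hw.symm)
        have h2 : zpowers (w : G) = M := Subgroup.eq_of_le_of_card_ge (zpowers_le.mpr hwM)
          (by rw [Nat.card_zpowers, hw, ht])
        exact (zpowers_le.mpr w.2) (h2.symm ▸ hm)
      exact ⟨this A h, this B (hAB ▸ h)⟩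
    have hdis : ∀ W : Subgroup G, Nat.card W = Nat.card A → W ⊓ M = ⊥ ∧
        Nat.card (M ⊔ W : Subgroup G) = p * Nat.card A := by
      intro W hW
      have h1 : M ⊓ W = ⊥ := Subgroup.inf_eq_bot_of_coprime (by
        rw [ht, hW]; exact hp.coprime_iff_not_dvd.mpr hpA)
      refine ⟨by rwa [inf_comm], ?_⟩
      rw [Coprime.card_sup (hsup W) h1, ht, hW]
    obtain ⟨y, -, hy⟩ := lift ⊤ le_top htopq (M ⊔ A) (M ⊔ B) le_sup_left le_sup_left le_top le_top
      (by rw [(hdis A rfl).2, (hdis B hAB.symm).2])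
    set A' := A.map (MulAut.conj y).toMonoidHom with hA'
    have hH : M ⊔ B = M ⊔ A' := by rw [hy, Subgroup.map_sup, map_conj_normal M]
    set H := M ⊔ B with hHdef
    have hidx : (M.subgroupOf H).index = Nat.card A := by
      have h1 := (M.subgroupOf H).card_mul_index
      rw [Nat.card_congr (Subgroup.subgroupOfEquivOfLe le_sup_left).toEquiv, ht,
        (hdis B hAB.symm).2] at h1
      exact Nat.eq_of_mul_eq_mul_left hp.pos h1
    obtain ⟨m, hm, hme⟩ := Core.exists_conj_eq_of_coprime (N := M.subgroupOf H) (by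
        rw [hidx, Nat.card_congr (Subgroup.subgroupOfEquivOfLe le_sup_left).toEquiv, ht]
        exact hp.coprime_iff_not_dvd.mpr hpA) (Or.inr inferInstance)
      (H := A'.subgroupOf H) (K := B.subgroupOf H)
      (by rw [hidx, Nat.card_congr (Subgroup.subgroupOfEquivOfLe (hH ▸ le_sup_right)).toEquiv, hA',
        card_map_conj])
      (by rw [hidx, Nat.card_congr (Subgroup.subgroupOfEquivOfLe le_sup_right).toEquiv, hAB])
    refine ⟨(m : G) * y, (Subgroup.eq_of_le_of_card_ge ?_ (by rw [card_map_conj, hAB])).symm⟩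
    rw [← map_conj_map]
    rintro _ ⟨a, ha, rfl⟩
    have haH : a ∈ H := hH ▸ mem_sup_right ha
    have h2 : MulAut.conj m • (⟨a, haH⟩ : H) ∈ B.subgroupOf H :=
      hme ▸ Subgroup.smul_mem_pointwise_smul _ (MulAut.conj m) _ (by exact ha)
    exact h2
  -- `M` is the Sylow subgroup
  obtain ⟨P⟩ : Nonempty (Sylow p G) := inferInstance
  have hPM : (P : Subgroup G) = M := (Cfsg.Agent.S3909.result hB M).2 p t ht2 ht hMel P
  have hMi : ¬ p ∣ M.index := hPM ▸ P.not_dvd_index
  have hinf : ∀ W : Subgroup G,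
      Nat.card (W ⊓ M : Subgroup G) = p ^ (Nat.card W).factorization p ∧
      ¬ p ∣ (M.subgroupOf W).index := by
    intro W
    have h2 : ¬ p ∣ (M.subgroupOf W).index := fun h => hMi (h.trans (Subgroup.relIndex_dvd_index_of_normal M W))
    refine ⟨?_, h2⟩
    obtain ⟨k, hk⟩ := IsPGroup.iff_card.mp (hMg.to_le (inf_le_right : W ⊓ M ≤ M))
    have h1 := (M.subgroupOf W).card_mul_index
    rw [← Subgroup.card_map_of_injective W.subtype_injective, Subgroup.subgroupOf_map_subtype,
      inf_comm, hk] at h1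
    rw [hk, ← h1, Nat.factorization_mul (pow_ne_zero _ hp.ne_zero) Subgroup.index_ne_zero_of_finite]
    simp [hp.factorization_self, Nat.factorization_eq_zero_of_not_dvd h2]
  obtain ⟨g, hg⟩ := hB (A ⊓ M) (B ⊓ M) (isMulCommutative_mono inf_le_right hMc)
    (isMulCommutative_mono inf_le_right hMc) (by rw [(hinf A).1, (hinf B).1, hAB])
  set C := B ⊓ M with hC
  set A₁ := A.map (MulAut.conj g).toMonoidHom with hA₁
  have hA₁C : A₁ ⊓ M = C := by
    rw [hg, Subgroup.map_inf _ _ _ (MulAut.conj g).injective, map_conj_normal M]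
  have hA₁B : Nat.card A₁ = Nat.card B := by rw [hA₁, card_map_conj, hAB]
  set Y := normalizer (C : Set G) with hY
  have hnorm : ∀ W : Subgroup G, W ⊓ M = C → W ≤ Y := fun W hW w hw =>
    mem_normalizer_of_map_eq C (by
      rw [← hW, Subgroup.map_inf _ _ _ (MulAut.conj w).injective, map_conj_normal M,
        conj_fix W (Subgroup.le_normalizer hw)])
  have hMY : M ≤ Y := fun m hm => Subgroup.centralizer_le_normalizer _ fun c hc =>
    congrArg Subtype.val (hMc.is_comm.comm (⟨c, (inf_le_right : C ≤ M) hc⟩ : M) ⟨m, hm⟩)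
  have hCp : IsPGroup p C := hMg.to_le inf_le_right
  have hT : ∀ (r : ℕ) [Fact r.Prime], ∀ T : Subgroup G, T ≤ Y → IsPGroup r T →
      IsCyclic T ∨ T ≤ centralizer (C : Set G) := by
    intro r _ T hTY hTr
    by_cases hC0 : C = ⊥
    · refine Or.inr fun x _ c hc => ?_
      rw [hC0] at hc
      rw [Subgroup.mem_bot.mp hc, one_mul, mul_one]
    refine cyclic_or_centralizes hB M hM hMc hMe C (lt_of_le_of_ne inf_le_right fun h => ?_) hC0 T hTY hTr
    refine hMA ⟨?_, h.ge.trans inf_le_left⟩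
    have h1 : M ≤ A₁ := (h.ge.trans hA₁C.ge).trans inf_le_left
    intro m hm
    obtain ⟨a, ha, hae⟩ := h1 (show g * m * g⁻¹ ∈ M from hM.1.conj_mem m hm g)
    rwa [← (MulAut.conj g).injective (hae.trans (MulAut.conj_apply g m).symm)]
  have hBY : AbConj (↥Y ⧸ M.subgroupOf Y) := by
    intro D D' hD hD' hDD
    let f := QuotientGroup.mk' (M.subgroupOf Y)
    have hMYc : ¬ p ∣ (M.subgroupOf Y).index := (hinf Y).2
    have hcop : (Nat.card (M.subgroupOf Y)).Coprime (M.subgroupOf Y).index := by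
      rw [Nat.card_congr (Subgroup.subgroupOfEquivOfLe hMY).toEquiv, ht]
      exact (hp.coprime_iff_not_dvd.mpr hMYc).pow_left t
    obtain ⟨X, hX⟩ := Subgroup.exists_right_complement'_of_coprime hcop
    have hinj : Function.Injective (f.comp X.subtype) := by
      refine (injective_iff_map_eq_one _).mpr fun x hx => Subtype.ext ?_
      exact Subgroup.mem_bot.mp (hX.disjoint.le_bot ⟨(QuotientGroup.eq_one_iff _).mp hx, x.2⟩)
    have hrange : (f.comp X.subtype).range = ⊤ := by
      refine Subgroup.eq_top_of_card_eq _ ?_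
      rw [← Nat.card_congr (MonoidHom.ofInjective hinj).toEquiv, ← Subgroup.index_eq_card,
        hX.symm.index_eq_card]
    let χ : X →* G := Y.subtype.comp X.subtype
    have hχ : Function.Injective χ := Y.subtype_injective.comp X.subtype_injective
    have hlift : ∀ D : Subgroup (↥Y ⧸ M.subgroupOf Y), IsMulCommutative D →
        IsMulCommutative ((D.comap (f.comp X.subtype)).map χ) ∧
        Nat.card ((D.comap (f.comp X.subtype)).map χ) = Nat.card D := by
      intro D hD
      haveI := hD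
      refine ⟨⟨⟨?_⟩⟩, ?_⟩
      · rintro ⟨_, a, ha, rfl⟩ ⟨_, b, hb, rfl⟩
        have h : a * b = b * a := hinj (by
          rw [map_mul, map_mul]
          exact congrArg Subtype.val (hD.is_comm.comm (⟨_, ha⟩ : D) ⟨_, hb⟩))
        exact Subtype.ext (by
          show χ a * χ b = χ b * χ a
          rw [← map_mul, ← map_mul, h])
      · rw [Subgroup.card_map_of_injective hχ, ← Subgroup.card_map_of_injective hinj,
          Subgroup.map_comap_eq_self (hrange.symm ▸ le_top)]
    have hle : ∀ D : Subgroup (↥Y ⧸ M.subgroupOf Y), (D.comap (f.comp X.subtype)).map χ ≤ Y := by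
      rintro D _ ⟨a, -, rfl⟩
      exact (a : Y).2
    have hpn : ¬ p ∣ Nat.card D := fun h => hMYc (h.trans (by
      rw [Subgroup.index_eq_card]; exact Subgroup.card_subgroup_dvd_card D))
    obtain ⟨y, hy, hye⟩ := conj_abelian_in hB C (isMulCommutative_mono inf_le_right hMc) hCp
      (Nat.card D) Y rfl _ _ (hle D) (hle D') (hlift D hD).1 (hlift D' hD').1 (hlift D hD).2
      ((hlift D' hD').2.trans hDD.symm) hpn (fun r _ _ T => hT r T)
    refine ⟨f ⟨y, hy⟩, (Subgroup.eq_of_le_of_card_ge ?_ (by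
      rw [Subgroup.card_map_of_injective (MulAut.conj _).injective, hDD])).symm⟩
    rintro _ ⟨d, hd, rfl⟩
    obtain ⟨a, rfl⟩ := (hrange.symm ▸ Subgroup.mem_top d : d ∈ (f.comp X.subtype).range)
    have hmem : y * χ a * y⁻¹ ∈ (D'.comap (f.comp X.subtype)).map χ :=
      hye ▸ ⟨χ a, mem_map_of_mem χ hd, rfl⟩
    obtain ⟨b, hb, hbe⟩ := hmem
    have h : (b : Y) = ⟨y, hy⟩ * (a : Y) * ⟨y, hy⟩⁻¹ := Subtype.ext hbe
    have hb' : f (b : Y) ∈ D' := hb
    rw [h, map_mul, map_mul, map_inv] at hb'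
    exact hb'
  have hAY := hnorm A₁ hA₁C
  have hBY' := hnorm B rfl
  have hcsup : ∀ W : Subgroup G, W ⊓ M = C → Nat.card (M ⊔ W : Subgroup G) * Nat.card C =
      Nat.card M * Nat.card W := by
    intro W hW
    have h1 := Subgroup.card_mul_index (M.subgroupOf (M ⊔ W))
    rw [Nat.card_congr (Subgroup.subgroupOfEquivOfLe (le_sup_left : M ≤ M ⊔ W)).toEquiv] at h1
    have h2 := Subgroup.card_mul_index (M.subgroupOf W)
    rw [← Subgroup.card_map_of_injective W.subtype_injective, Subgroup.subgroupOf_map_subtype,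
      inf_comm, hW] at h2
    have h3 : (M.subgroupOf (M ⊔ W)).index = (M.subgroupOf W).index := by
      show M.relIndex (M ⊔ W) = M.relIndex W
      exact Subgroup.relIndex_sup_left W M
    rw [← h1, ← h2, h3]
    ring
  obtain ⟨y, hyY, hy⟩ := lift Y hMY hBY (M ⊔ A₁) (M ⊔ B) le_sup_left le_sup_left
    (sup_le hMY hAY) (sup_le hMY hBY') (by
      refine Nat.eq_of_mul_eq_mul_right (Nat.card_pos (α := C)) ?_
      rw [hcsup A₁ hA₁C, hcsup B rfl, hA₁B])
  set A₂ := A₁.map (MulAut.conj y).toMonoidHom with hA₂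
  have hA₂C : A₂ ⊓ M = C := by
    rw [hA₂, ← map_conj_normal M y, ← Subgroup.map_inf _ _ _ (MulAut.conj y).injective, hA₁C,
      conj_fix C hyY]
  set H := M ⊔ B with hHdef
  have hH : H = M ⊔ A₂ := by rw [hy, Subgroup.map_sup, map_conj_normal M]
  -- complements of `C` inside both subgroups
  have hcompl : ∀ W : Subgroup G, W ⊓ M = C → W ≤ H → Nat.card W = Nat.card B →
      ∃ W₁ : Subgroup G, W₁ ≤ W ∧ W₁ ≤ H ∧ W = C ⊔ W₁ ∧ Nat.card (W₁.subgroupOf H) = (M.subgroupOf H).index := by
    intro W hW hWH hWc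
    have hcop : (Nat.card (M.subgroupOf W)).Coprime (M.subgroupOf W).index := by
      rw [← Subgroup.card_map_of_injective W.subtype_injective, Subgroup.subgroupOf_map_subtype]
      obtain ⟨k, hk⟩ := IsPGroup.iff_card.mp (hMg.to_le (inf_le_left : M ⊓ W ≤ M))
      rw [hk]
      exact (hp.coprime_iff_not_dvd.mpr (hinf W).2).pow_left k
    obtain ⟨X, hX⟩ := Subgroup.exists_right_complement'_of_coprime hcop
    refine ⟨X.map W.subtype, Subgroup.map_subtype_le X, (Subgroup.map_subtype_le X).trans hWH, ?_, ?_⟩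
    · rw [← hW, inf_comm, ← Subgroup.subgroupOf_map_subtype, ← Subgroup.map_sup, hX.sup_eq_top,
        ← MonoidHom.range_eq_map, Subgroup.range_subtype]
    · rw [Nat.card_congr (Subgroup.subgroupOfEquivOfLe ((Subgroup.map_subtype_le X).trans hWH)).toEquiv,
        Subgroup.card_map_of_injective W.subtype_injective, ← hX.symm.index_eq_card]
      have h1 := hcsup W hW
      have hWH' : M ⊔ W = H := le_antisymm (sup_le le_sup_left hWH) (by
        refine le_of_eq (Subgroup.eq_of_le_of_card_ge (sup_le le_sup_left hWH) ?_).symm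
        refine le_of_eq (Nat.eq_of_mul_eq_mul_right (Nat.card_pos (α := C)) ?_).symm
        rw [h1, hcsup B rfl, hWc])
      rw [← hWH']
      exact (Subgroup.relIndex_sup_left W M).symm
  obtain ⟨X₁, hX₁A, hX₁H, hA₂X, hX₁c⟩ := hcompl A₂ hA₂C (hH ▸ le_sup_right)
    (by rw [hA₂, card_map_conj, hA₁B])
  obtain ⟨X₂, hX₂B, hX₂H, hBX, hX₂c⟩ := hcompl B rfl le_sup_right rfl
  obtain ⟨m, hm, hme⟩ := Core.exists_conj_eq_of_coprime (N := M.subgroupOf H) (by
      rw [Nat.card_congr (Subgroup.subgroupOfEquivOfLe (le_sup_left : M ≤ H)).toEquiv, ht]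
      exact (hp.coprime_iff_not_dvd.mpr (hinf H).2).pow_left t) (Or.inr inferInstance)
    (H := X₁.subgroupOf H) (K := X₂.subgroupOf H) hX₁c hX₂c
  refine ⟨(m : G) * (y * g), (Subgroup.eq_of_le_of_card_ge ?_ (by rw [card_map_conj, hAB])).symm⟩
  rw [← map_conj_map, ← map_conj_map, ← hA₁, ← hA₂, hA₂X, Subgroup.map_sup,
    conj_fix C (hMY (Subgroup.mem_subgroupOf.mp hm))]
  refine sup_le inf_le_left ?_
  rintro _ ⟨a, ha, rfl⟩
  have haH : a ∈ H := hX₁H ha
  have h2 : MulAut.conj m • (⟨a, haH⟩ : H) ∈ X₂.subgroupOf H :=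
    hme ▸ Subgroup.smul_mem_pointwise_smul _ (MulAut.conj m) _ (by exact ha)
  exact hX₂B h2

end Cfsg.Agent.AbConjAll
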